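/-
Helper library (helper25): row S2486 (two Sylow 2-subgroups of `SL_n(2).2` meet non-trivially).
The property "the elements `a` with `U ∩ a U a⁻¹ = 1` form at most one `(U,U)`-double coset".
-/
import Mathlib

set_option autoImplicit false

namespace Cfsg.Agent.Lib.Helper25.Opp

open scoped Pointwise

/-- the elements `a` with `U ∩ a U a⁻¹ = 1` form at most one `(U,U)`-double coset -/
def OneOpp {X : Type*} [Group X] (U : Subgroup X) : Prop :=
  ∀ a b : X, U ⊓ MulAut.conj a • U = ⊥ → U ⊓ MulAut.conj b • U = ⊥ →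
    ∃ u ∈ U, ∃ u' ∈ U, b = u * a * u'

end Cfsg.Agent.Lib.Helper25.Opp
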