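/-
Helper library (helper25): row S2486, piece A (the abstract argument).
-/
import Cfsg.Agent.Lib.Helper25.Opp.Defs

set_option autoImplicit false

namespace Cfsg.Agent.Lib.Helper25.Opp

open scoped Pointwise

theorem mem_conj_smul25 {X : Type*} [Group X] (S : Subgroup X) (g y : X) :
    y ∈ MulAut.conj g • S ↔ g⁻¹ * y * g ∈ S := by
  rw [Subgroup.mem_pointwise_smul_iff_inv_smul_mem, ← map_inv, MulAut.smul_def,
    MulAut.conj_apply, inv_inv]

theorem pieceA {G : Type*} [Group G] [Finite G] (N : Subgroup G) [N.Normal] (hidx : N.index = 2)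
    (H : Sylow 2 G) (hopp : OneOpp ((H : Subgroup G).subgroupOf N)) (x : G) :
    (H : Subgroup G) ⊓ MulAut.conj x • (H : Subgroup G) ≠ ⊥ := by
  have hHN : ¬ (H : Subgroup G) ≤ N := by
    intro h
    have h1 := Subgroup.relIndex_mul_index h
    apply H.not_dvd_index
    rw [← h1, hidx]
    exact dvd_mul_left _ _
  obtain ⟨t, htH, htN⟩ := SetLike.not_le_iff_exists.1 hHN
  have key : ∀ a ∈ N, (H : Subgroup G) ⊓ MulAut.conj a • (H : Subgroup G) ≠ ⊥ := by
    intro a ha hbot
    have hb : t * a * t⁻¹ ∈ N := ‹N.Normal›.conj_mem a ha t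
    have h1 : (H : Subgroup G).subgroupOf N
        ⊓ MulAut.conj (⟨a, ha⟩ : N) • (H : Subgroup G).subgroupOf N = ⊥ := by
      rw [eq_bot_iff]
      intro y hy
      obtain ⟨hy1, hy2⟩ := Subgroup.mem_inf.1 hy
      rw [mem_conj_smul25, Subgroup.mem_subgroupOf] at hy2
      rw [Subgroup.mem_subgroupOf] at hy1
      have h3 : (y : G) ∈ (H : Subgroup G) ⊓ MulAut.conj a • (H : Subgroup G) := by
        refine Subgroup.mem_inf.2 ⟨hy1, ?_⟩
        rw [mem_conj_smul25]
        simpa using hy2
      rw [hbot, Subgroup.mem_bot] at h3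
      rw [Subgroup.mem_bot]
      exact Subtype.ext h3
    have h2 : (H : Subgroup G).subgroupOf N
        ⊓ MulAut.conj (⟨t * a * t⁻¹, hb⟩ : N) • (H : Subgroup G).subgroupOf N = ⊥ := by
      rw [eq_bot_iff]
      intro y hy
      obtain ⟨hy1, hy2⟩ := Subgroup.mem_inf.1 hy
      rw [mem_conj_smul25, Subgroup.mem_subgroupOf] at hy2
      rw [Subgroup.mem_subgroupOf] at hy1
      have hy2' : (t * a * t⁻¹)⁻¹ * (y : G) * (t * a * t⁻¹) ∈ (H : Subgroup G) := by
        simpa using hy2
      have h3 : t⁻¹ * (y : G) * t ∈ (H : Subgroup G) ⊓ MulAut.conj a • (H : Subgroup G) := by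
        refine Subgroup.mem_inf.2
          ⟨mul_mem (mul_mem (inv_mem htH) hy1) htH, ?_⟩
        rw [mem_conj_smul25]
        have h4 := mul_mem (mul_mem (inv_mem htH) hy2') htH
        have e : t⁻¹ * ((t * a * t⁻¹)⁻¹ * (y : G) * (t * a * t⁻¹)) * t
            = a⁻¹ * (t⁻¹ * (y : G) * t) * a := by group
        rwa [e] at h4
      rw [hbot, Subgroup.mem_bot] at h3
      rw [Subgroup.mem_bot]
      apply Subtype.ext
      have : (y : G) = t * (t⁻¹ * (y : G) * t) * t⁻¹ := by group
      rw [this, h3]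
      simp
    obtain ⟨u, hu, u', hu', hbu⟩ := hopp _ _ h1 h2
    have hbu' : t * a * t⁻¹ = (u : G) * a * (u' : G) := by
      have := congrArg Subtype.val hbu
      simpa using this
    rw [Subgroup.mem_subgroupOf] at hu hu'
    have h5 : (u : G)⁻¹ * t ∈ (H : Subgroup G) ⊓ MulAut.conj a • (H : Subgroup G) := by
      refine Subgroup.mem_inf.2 ⟨mul_mem (inv_mem hu) htH, ?_⟩
      rw [mem_conj_smul25]
      have e : a⁻¹ * ((u : G)⁻¹ * t) * a = (u' : G) * t := by
        have : t * a = (u : G) * a * (u' : G) * t := by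
          rw [← hbu']; group
        calc a⁻¹ * ((u : G)⁻¹ * t) * a = a⁻¹ * (u : G)⁻¹ * (t * a) := by group
          _ = a⁻¹ * (u : G)⁻¹ * ((u : G) * a * (u' : G) * t) := by rw [this]
          _ = (u' : G) * t := by group
      rw [e]
      exact mul_mem hu' htH
    rw [hbot, Subgroup.mem_bot] at h5
    apply htN
    have : t = (u : G) := by
      have := congrArg (fun z => (u : G) * z) h5
      simpa using this
    rw [this]
    exact u.2
  by_cases hx : x ∈ N
  · exact key x hx
  · have h1 : x * t⁻¹ ∈ N := by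
      rw [Subgroup.mul_mem_iff_of_index_two hidx]
      simp [hx, htN]
    have h2 : MulAut.conj x • (H : Subgroup G) = MulAut.conj (x * t⁻¹) • (H : Subgroup G) := by
      rw [map_mul, mul_smul, Subgroup.conj_smul_eq_self_of_mem (inv_mem htH)]
    rw [h2]
    exact key _ h1

end Cfsg.Agent.Lib.Helper25.Opp
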