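/-
Helper library (helper25): row S2486, piece C (the upper triangular group is a Sylow 2-subgroup of
`GL_n(2)`).
-/
import Cfsg.Agent.Lib.Helper25.Opp.Defs
import Cfsg.Agent.Lib.Helper39.Stbg.Bruhat

set_option autoImplicit false

namespace Cfsg.Agent.Lib.Helper25.Opp

open scoped Pointwise MatrixGroups
open Cfsg.Agent.Lib.Helper39.Stbg

theorem card_borel25 (n : ℕ) : Nat.card (borel (ZMod 2) n) = ∏ j : Fin n, 2 ^ j.val := by
  have hb : Monotone (fun i : Fin n => i.val) := fun i j h => h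
  rw [card_blockSub hb]
  apply Finset.prod_congr rfl
  intro j _
  rw [stdDim_eq hb j]
  have h1 : (Finset.univ.filter fun i : Fin n => i.val ≤ j.val) = Finset.Iic j := by
    ext i
    rw [Finset.mem_filter, Finset.mem_Iic, Fin.le_def]
    exact ⟨fun h => h.2, fun h => ⟨Finset.mem_univ _, h⟩⟩
  rw [h1, Fin.card_Iic, ZMod.card, pow_succ]
  omega

theorem pieceC (n : ℕ) : IsPGroup 2 (borel (ZMod 2) n) ∧ ¬ 2 ∣ (borel (ZMod 2) n).index := by
  constructor
  · apply IsPGroup.of_card (n := ∑ j : Fin n, j.val)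
    rw [card_borel25, Finset.prod_pow_eq_pow_sum]
  · intro hd
    have h1 := Subgroup.index_mul_card (borel (ZMod 2) n)
    rw [card_borel25, Matrix.card_GL_field, ZMod.card] at h1
    have h2 : ∏ i : Fin n, (2 ^ n - 2 ^ i.val)
        = (∏ i : Fin n, (2 ^ (n - i.val) - 1)) * ∏ i : Fin n, 2 ^ i.val := by
      rw [← Finset.prod_mul_distrib]
      apply Finset.prod_congr rfl
      intro i _
      rw [Nat.sub_mul, one_mul, ← pow_add, Nat.sub_add_cancel i.2.le]
    rw [h2] at h1
    have h3 : (borel (ZMod 2) n).index = ∏ i : Fin n, (2 ^ (n - i.val) - 1) :=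
      Nat.eq_of_mul_eq_mul_right (Finset.prod_pos fun i _ => by positivity) h1
    rw [h3] at hd
    obtain ⟨i, -, hi⟩ := (Nat.prime_two.prime.dvd_finsetProd_iff _).1 hd
    obtain ⟨k, hk⟩ : ∃ k, n - i.val = k + 1 := ⟨n - i.val - 1, by have := i.2; omega⟩
    rw [hk, pow_succ] at hi
    have : 0 < 2 ^ k := by positivity
    omega

end Cfsg.Agent.Lib.Helper25.Opp
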