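/-
Helper library (helper25): row S2486, pieces T, D, S, E.
-/
import Cfsg.Agent.Lib.Helper25.Opp.A

set_option autoImplicit false

namespace Cfsg.Agent.Lib.Helper25.Opp

open scoped Pointwise MatrixGroups

theorem pieceT {X Y : Type*} [Group X] [Group Y] (f : X ≃* Y) (U : Subgroup X) (h : OneOpp U) :
    OneOpp (U.map f.toMonoidHom) := by
  have key : ∀ a : Y, U.map f.toMonoidHom ⊓ MulAut.conj a • U.map f.toMonoidHom = ⊥ →
      U ⊓ MulAut.conj (f.symm a) • U = ⊥ := by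
    intro a ha
    rw [eq_bot_iff]
    intro y hy
    obtain ⟨hy1, hy2⟩ := Subgroup.mem_inf.1 hy
    rw [mem_conj_smul25] at hy2
    have h3 : f y ∈ U.map f.toMonoidHom ⊓ MulAut.conj a • U.map f.toMonoidHom := by
      refine Subgroup.mem_inf.2 ⟨⟨y, hy1, rfl⟩, ?_⟩
      rw [mem_conj_smul25]
      refine ⟨_, hy2, ?_⟩
      simp
    rw [ha, Subgroup.mem_bot] at h3
    rw [Subgroup.mem_bot]
    exact (map_eq_one_iff f f.injective).1 h3
  intro a b ha hb
  obtain ⟨u, hu, u', hu', hbu⟩ := h _ _ (key a ha) (key b hb)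
  refine ⟨f u, ⟨u, hu, rfl⟩, f u', ⟨u', hu', rfl⟩, ?_⟩
  have := congrArg f hbu
  simpa using this

theorem pieceD {X : Type*} [Group X] [Finite X] (p : ℕ) [Fact p.Prime] (U V : Subgroup X)
    (hU : IsPGroup p U) (hU' : ¬ p ∣ U.index) (hV : IsPGroup p V) (hV' : ¬ p ∣ V.index)
    (h : OneOpp U) : OneOpp V := by
  have mk : ∀ W : Subgroup X, IsPGroup p W → ¬ p ∣ W.index → ∃ P : Sylow p X, (P : Subgroup X) = W := by
    intro W hW hW'
    exact ⟨hW.toSylow hW', rfl⟩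
  obtain ⟨P, hP⟩ := mk U hU hU'
  obtain ⟨Q, hQ⟩ := mk V hV hV'
  obtain ⟨c, hc⟩ := MulAction.exists_smul_eq X P Q
  have h1 : V = U.map (MulAut.conj c).toMonoidHom := by
    rw [← hQ, ← hc, ← hP]
    rfl
  rw [h1]
  exact pieceT (MulAut.conj c) U h

theorem pieceS {G : Type*} [Group G] [Finite G] (N : Subgroup G) [N.Normal] (H : Sylow 2 G) :
    IsPGroup 2 ((H : Subgroup G).subgroupOf N) ∧ ¬ 2 ∣ ((H : Subgroup G).subgroupOf N).index := by
  refine ⟨H.2.comap_subtype, ?_⟩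
  intro hd
  apply H.not_dvd_index
  refine hd.trans ?_
  change (H : Subgroup G).relIndex N ∣ _
  set K : Subgroup G := (H : Subgroup G) with hK
  have h1 : (K ⊓ N).relIndex K * K.relIndex (K ⊔ N) = (K ⊓ N).relIndex (K ⊔ N) :=
    Subgroup.relIndex_mul_relIndex _ _ _ inf_le_left le_sup_left
  have h2 : (K ⊓ N).relIndex N * N.relIndex (K ⊔ N) = (K ⊓ N).relIndex (K ⊔ N) :=
    Subgroup.relIndex_mul_relIndex _ _ _ inf_le_right le_sup_right
  rw [Subgroup.inf_relIndex_left] at h1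
  rw [Subgroup.inf_relIndex_right, Subgroup.relIndex_sup_right, ← h1, mul_comm] at h2
  have h3 : K.relIndex N = K.relIndex (K ⊔ N) :=
    Nat.eq_of_mul_eq_mul_left (Nat.pos_of_ne_zero (by
      unfold Subgroup.relIndex
      exact Subgroup.index_ne_zero_of_finite)) h2
  rw [h3]
  exact Subgroup.relIndex_dvd_index_of_le le_sup_left

theorem pieceE (n : ℕ) :
    Nonempty (Matrix.SpecialLinearGroup (Fin n) (ZMod 2) ≃* GL (Fin n) (ZMod 2)) := by
  refine ⟨MulEquiv.ofBijective Matrix.SpecialLinearGroup.toGL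
    ⟨Matrix.SpecialLinearGroup.toGL_injective, ?_⟩⟩
  intro g
  have hsub : ∀ u : (ZMod 2)ˣ, u = 1 := by decide
  have hdet : (g : Matrix (Fin n) (Fin n) (ZMod 2)).det = 1 := by
    have := hsub (Matrix.GeneralLinearGroup.det g)
    have h2 := congrArg Units.val this
    simpa using h2
  refine ⟨⟨g.1, hdet⟩, ?_⟩
  apply Units.ext
  rfl

end Cfsg.Agent.Lib.Helper25.Opp
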