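/-
Helper library (helper25): row S2486, pieces W and B (Bruhat cells and opposite Borel subgroups).
-/
import Cfsg.Agent.Lib.Helper25.Opp.A
import Cfsg.Agent.Lib.Helper39.Stbg.Bruhat

set_option autoImplicit false

namespace Cfsg.Agent.Lib.Helper25.Opp

open scoped Pointwise MatrixGroups
open Cfsg.Agent.Lib.Helper39.Stbg

theorem conj_wGL_apply25 {F : Type*} [Field F] {n : ℕ} (σ : Equiv.Perm (Fin n)) (g : GL (Fin n) F)
    (a b : Fin n) : ((wGL F σ)⁻¹ * g * wGL F σ).1 a b = g.1 (σ a) (σ b) := by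
  rw [← map_inv]
  change ((wGL F σ⁻¹).1 * g.1 * (wGL F σ).1) a b = _
  rw [Matrix.mul_apply, Finset.sum_eq_single (σ b)]
  · rw [wGL_apply, if_pos rfl, mul_one, Matrix.mul_apply, Finset.sum_eq_single (σ a)]
    · rw [wGL_apply, if_pos (by simp), one_mul]
    · intro c _ hc
      rw [wGL_apply, if_neg, zero_mul]
      intro h
      apply hc
      rw [h]
      simp
    · intro h
      exact absurd (Finset.mem_univ _) h
  · intro c _ hc
    rw [wGL_apply, if_neg hc, mul_zero]
  · intro h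
    exact absurd (Finset.mem_univ _) h

theorem pieceW {F : Type*} [Field F] {n : ℕ} (σ : Equiv.Perm (Fin n))
    (h : borel F n ⊓ MulAut.conj (wGL F σ) • borel F n = ⊥) : ∀ i j : Fin n, i < j → σ j < σ i := by
  intro i j hij
  by_contra hcon
  have hne : σ i ≠ σ j := fun e => hij.ne (σ.injective e)
  have hlt : σ i < σ j := lt_of_le_of_ne (not_lt.1 hcon) hne
  set x : GL (Fin n) F := Matrix.GeneralLinearGroup.mkOfDetNeZero
    (Matrix.transvection (σ i) (σ j) 1)
    (by rw [Matrix.det_transvection_of_ne _ _ hne]; exact one_ne_zero) with hx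
  have hx1 : ∀ a b : Fin n, x.1 a b
      = (1 : Matrix (Fin n) (Fin n) F) a b + Matrix.single (σ i) (σ j) (1 : F) a b := by
    intro a b
    rfl
  have hmem : x ∈ borel F n ⊓ MulAut.conj (wGL F σ) • borel F n := by
    refine Subgroup.mem_inf.2 ⟨?_, ?_⟩
    · intro a b hba
      have hba' : b < a := hba
      rw [hx1, Matrix.one_apply_ne hba'.ne', zero_add, Matrix.single_apply, if_neg]
      rintro ⟨rfl, rfl⟩
      exact absurd hlt (not_lt.2 hba'.le)
    · rw [mem_conj_smul25]
      intro a b hba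
      have hba' : b < a := hba
      rw [conj_wGL_apply25, hx1, Matrix.one_apply_ne (fun e => hba'.ne' (σ.injective e)), zero_add,
        Matrix.single_apply, if_neg]
      rintro ⟨h1, h2⟩
      rw [σ.injective h1, σ.injective h2] at hij
      exact absurd hij (not_lt.2 hba'.le)
  rw [h, Subgroup.mem_bot] at hmem
  have h2 := hx1 (σ i) (σ j)
  rw [hmem, Matrix.single_apply, if_pos ⟨rfl, rfl⟩] at h2
  change (1 : Matrix (Fin n) (Fin n) F) (σ i) (σ j) = _ at h2
  rw [Matrix.one_apply_ne hne, zero_add] at h2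
  exact zero_ne_one h2

theorem anti_unique25 {n : ℕ} (σ τ : Equiv.Perm (Fin n))
    (hσ : ∀ i j : Fin n, i < j → σ j < σ i) (hτ : ∀ i j : Fin n, i < j → τ j < τ i) : σ = τ := by
  have h1 : StrictMono (fun i : Fin n => σ (Fin.rev i)) := by
    intro i j hij
    exact hσ _ _ (Fin.rev_lt_rev.2 hij)
  have h2 : StrictMono (fun i : Fin n => τ (Fin.rev i)) := by
    intro i j hij
    exact hτ _ _ (Fin.rev_lt_rev.2 hij)
  have h3 : (fun i : Fin n => σ (Fin.rev i)) = (fun i : Fin n => τ (Fin.rev i)) := by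
    apply (StrictMono.range_inj h1 h2).1
    have e1 : Set.range (fun i : Fin n => σ (Fin.rev i)) = Set.univ := by
      apply Function.Surjective.range_eq
      intro y
      exact ⟨Fin.rev (σ.symm y), by simp⟩
    have e2 : Set.range (fun i : Fin n => τ (Fin.rev i)) = Set.univ := by
      apply Function.Surjective.range_eq
      intro y
      exact ⟨Fin.rev (τ.symm y), by simp⟩
    rw [e1, e2]
  ext i
  have := congrFun h3 (Fin.rev i)
  simp only [Fin.rev_rev] at this
  rw [this]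

theorem pieceB {F : Type*} [Field F] {n : ℕ} : OneOpp (borel F n) := by
  have key : ∀ (a u u' : GL (Fin n) F) (σ : Equiv.Perm (Fin n)), u ∈ borel F n → u' ∈ borel F n →
      a = u * wGL F σ * u' → borel F n ⊓ MulAut.conj a • borel F n = ⊥ →
      borel F n ⊓ MulAut.conj (wGL F σ) • borel F n = ⊥ := by
    intro a u u' σ hu hu' ha hbot
    rw [eq_bot_iff]
    intro y hy
    obtain ⟨hy1, hy2⟩ := Subgroup.mem_inf.1 hy
    rw [mem_conj_smul25] at hy2
    have h3 : u * y * u⁻¹ ∈ borel F n ⊓ MulAut.conj a • borel F n := by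
      refine Subgroup.mem_inf.2 ⟨mul_mem (mul_mem hu hy1) (inv_mem hu), ?_⟩
      rw [mem_conj_smul25, ha]
      have e : (u * wGL F σ * u')⁻¹ * (u * y * u⁻¹) * (u * wGL F σ * u')
          = u'⁻¹ * ((wGL F σ)⁻¹ * y * wGL F σ) * u' := by group
      rw [e]
      exact mul_mem (mul_mem (inv_mem hu') hy2) hu'
    rw [hbot, Subgroup.mem_bot] at h3
    rw [Subgroup.mem_bot]
    have : y = u⁻¹ * (u * y * u⁻¹) * u := by group
    rw [this, h3]
    group
  intro a b ha hb
  obtain ⟨u1, hu1, u1', hu1', σ, hσ⟩ := bruhat a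
  obtain ⟨u2, hu2, u2', hu2', τ, hτ⟩ := bruhat b
  have e : σ = τ := anti_unique25 σ τ (pieceW σ (key a u1 u1' σ hu1 hu1' hσ ha))
    (pieceW τ (key b u2 u2' τ hu2 hu2' hτ hb))
  refine ⟨u2 * u1⁻¹, mul_mem hu2 (inv_mem hu1), u1'⁻¹ * u2', mul_mem (inv_mem hu1') hu2', ?_⟩
  rw [hτ, hσ, e]
  group

end Cfsg.Agent.Lib.Helper25.Opp
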